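import Cfsg.Agent.H933.TitsSep
import Cfsg.Agent.H339.MaxRow

/-!
# The Tits group has three pairwise apart invariant subgroups (row of S5907)
-/

set_option autoImplicit false
set_option linter.unusedSectionVars false

namespace Cfsg.Agent.H933.TitsInv

open Subgroup Cfsg Cfsg.Agent.H339.MaxCl

universe u

theorem map_normalizer {X Y : Type*} [Group X] [Group Y] (e : X ≃* Y) (A : Subgroup X) :
    (normalizer (A : Set X)).map e.toMonoidHom = normalizer ((A.map e.toMonoidHom : Subgroup Y) : Set Y) := by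
  ext y
  constructor
  · rintro ⟨x, hx, rfl⟩
    rw [mem_normalizer_iff]
    intro z
    obtain ⟨w, rfl⟩ := e.surjective z
    have h1 := mem_normalizer_iff.1 hx w
    have h2 : ∀ v : X, e v ∈ (A.map e.toMonoidHom : Subgroup Y) ↔ v ∈ A := by
      intro v
      constructor
      · rintro ⟨u, hu, huv⟩
        have : u = v := e.injective huv
        rwa [← this]
      · intro hv
        exact ⟨v, hv, rfl⟩
    have h3 : e.toMonoidHom x * e w * (e.toMonoidHom x)⁻¹ = e (x * w * x⁻¹) := by
      simp
    rw [h3, h2, h2]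
    exact h1
  · intro hy
    obtain ⟨x, rfl⟩ := e.surjective y
    refine ⟨x, ?_, rfl⟩
    show x ∈ normalizer (A : Set X)
    rw [mem_normalizer_iff] at hy ⊢
    intro w
    have h1 := hy (e w)
    have h2 : ∀ v : X, e v ∈ (A.map e.toMonoidHom : Subgroup Y) ↔ v ∈ A := by
      intro v
      constructor
      · rintro ⟨u, hu, huv⟩
        have : u = v := e.injective huv
        rwa [← this]
      · intro hv
        exact ⟨v, hv, rfl⟩
    have h3 : e x * e w * (e x)⁻¹ = e (x * w * x⁻¹) := by
      simp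
    rw [h3, h2, h2] at h1
    exact h1

theorem autInv_normalizer {K : Type*} [Group K] {A : Subgroup K} (h : AutInv A) : AutInv (normalizer (A : Set K)) := by
  intro α
  obtain ⟨g, hg⟩ := h α
  refine ⟨g, ?_⟩
  rw [map_normalizer, map_normalizer, ← hg]

/-- the two notions of apart -/
theorem apart_iff {K : Type*} [Group K] {A B : Subgroup K} : H940.MaxCls.Apart A B ↔ Apart A B := by
  constructor
  · intro h H h1 g h2
    exact h g H h1 fun x hx => h2 ⟨x, hx, rfl⟩
  · intro h g H h1 h2
    refine h H h1 g ?_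
    rintro _ ⟨x, hx, rfl⟩
    exact h2 x hx

theorem sepInv_three {K : Type*} [Group K] {A B C : Subgroup K} (hA : A ≠ ⊤ ∧ A ≠ ⊥ ∧ AutInv A)
    (hB : B ≠ ⊤ ∧ B ≠ ⊥ ∧ AutInv B) (hC : C ≠ ⊤ ∧ C ≠ ⊥ ∧ AutInv C) (hAB : Apart A B) (hAC : Apart A C)
    (hBC : Apart B C) : SepInv 3 K := by
  refine ⟨![A, B, C], ?_, ?_⟩
  · intro i
    fin_cases i
    · exact hA
    · exact hB
    · exact hC
  · intro i j hij
    fin_cases i <;> fin_cases j
    · exact absurd rfl hij
    · exact hAB
    · exact hAC
    · exact hAB.symm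
    · exact absurd rfl hij
    · exact hBC
    · exact hAC.symm
    · exact hBC.symm
    · exact absurd rfl hij

theorem ne_bot_of_card {X : Type*} [Group X] {A : Subgroup X} (h : Nat.card A ≠ 1) : A ≠ ⊥ := by
  rintro rfl
  exact h Subgroup.card_bot

/-- **three pairwise apart invariant subgroups of the Tits group** -/
theorem tits {G : Type u} [Group G] (h : Lie.IsoTits G) : SepInv 3 G := by
  have f13 : Fact (Nat.Prime 13) := ⟨by norm_num⟩
  have f5 : Fact (Nat.Prime 5) := ⟨Nat.prime_five⟩
  have f2 : Fact (Nat.Prime 2) := ⟨Nat.prime_two⟩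
  have hfin : Finite G := by
    obtain ⟨e⟩ := h
    exact TitsSep.finite_equiv H92.ExcTits.card_tits (by norm_num) e.toEquiv
  have hs : IsSimpleGroup G := TitsSep.simple_tits h
  have F := H235.TitsRow.facts h
  have O := TitsBN.odd2_tits h
  obtain ⟨P, hP⟩ := TitsSep.exists_thirteen F
  obtain ⟨Q⟩ : Nonempty (Sylow 5 G) := inferInstance
  have hQ := TitsSep.card_five F Q
  obtain ⟨T⟩ : Nonempty (Sylow 2 G) := inferInstance
  have hT : Nat.card (T : Subgroup G) = 2 ^ 11 := by
    rw [T.card_eq_multiplicity, F.card]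
    have : (17971200 : ℕ) = 2 ^ 11 * 8775 := by norm_num
    rw [this, Nat.factorization_mul (by norm_num) (by norm_num), Nat.factorization_pow, Finsupp.add_apply,
      Finsupp.smul_apply, Nat.Prime.factorization_self Nat.prime_two,
      Nat.factorization_eq_zero_of_not_dvd (by norm_num : ¬ 2 ∣ 8775)]
    norm_num
  refine sepInv_three (A := normalizer ((P : Subgroup G) : Set G)) (B := normalizer ((Q : Subgroup G) : Set G))
    (C := (T : Subgroup G)) ⟨?_, ?_, autInv_normalizer (autInv_sylow P)⟩ ⟨?_, ?_, autInv_normalizer (autInv_sylow Q)⟩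
    ⟨?_, ?_, autInv_sylow T⟩ (apart_iff.1 (TitsSep.apart_AB F hP Q)) (apart_iff.1 ?_) (apart_iff.1 ?_)
  · exact TitsSep.ne_top_of_card (by rw [hP, F.card]; norm_num)
  · exact ne_bot_of_card (by rw [hP]; norm_num)
  · exact TitsSep.ne_top_of_card (by rw [hQ, F.card]; norm_num)
  · exact ne_bot_of_card (by rw [hQ]; norm_num)
  · exact TitsSep.ne_top_of_card (by rw [hT, F.card]; norm_num)
  · exact ne_bot_of_card (by rw [hT]; norm_num)
  · exact TitsSep.apart_odd F O (a := 13) (b := 2 ^ 11) (by rw [hP]; norm_num) hT.symm.dvd (by decide +kernel)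
      (by decide +kernel) (by decide +kernel)
  · exact TitsSep.apart_odd F O (a := 25) (b := 2 ^ 11) (by rw [hQ]; norm_num) hT.symm.dvd (by decide +kernel)
      (by decide +kernel) (by decide +kernel)

end Cfsg.Agent.H933.TitsInv
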